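import Cfsg.Agent.H3.Central

/-!
# Extensions of characters and the graded algebra `(ℂG)^N`; the Alperin–Dade theorem
-/

set_option autoImplicit false
set_option linter.unusedSectionVars false

namespace Cfsg.Agent.H3

open Cfsg MonoidAlgebra Cfsg.Agent.H5 Cfsg.Agent.H4
open scoped ComplexConjugate

variable {M : Ideal AlgInt} [hMm : M.IsMaximal] {G : Type*} [Group G] [Finite G]

omit hMm in
theorem asAlgebraHom_invAlg {V : Type*} [AddCommGroup V] [Module ℂ V] [FiniteDimensional ℂ V]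
    (ρ : Representation ℂ G V) {N : Subgroup G}
    (h : IsIrrCharacter N fun n : N => ρ.character n) {z : ℂ[G]} (hz : z ∈ invAlg ℂ N) :
    ρ.asAlgebraHom z = om ρ.character z • LinearMap.id := by
  have := isIrreducible_of_isIrrCharacter (ρ.comp N.subtype) h
  obtain ⟨c, hc⟩ := exists_eq_smul_id_of_comm (ρ.comp N.subtype) (ρ.asAlgebraHom z) (fun g v => by
    have := congrArg ρ.asAlgebraHom
      (single_mul_eq_mul_single_iff.mpr (mem_invAlg.mp hz g g.2))
    rw [map_mul, map_mul, ρ.asAlgebraHom_single_one] at this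
    exact (LinearMap.congr_fun this v).symm)
  have h0 : ρ.character 1 ≠ 0 := h.apply_one_ne_zero
  rw [om_apply, ev_character, hc, map_smul, LinearMap.trace_id, ← ρ.char_one, smul_eq_mul,
    mul_div_cancel_right₀ _ h0]

omit hMm in
theorem om_invAlg_mul {χ : G → ℂ} (hχ : IsCharacter G χ) {N : Subgroup G}
    (h : IsIrrCharacter N fun n : N => χ n) {z : ℂ[G]} (hz : z ∈ invAlg ℂ N) (a : ℂ[G]) :
    om χ (z * a) = om χ z * om χ a := by
  obtain ⟨n, ρ, rfl⟩ := hχ
  rw [om_apply _ (z * a), om_apply _ a, ev_character, ev_character, map_mul,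
    asAlgebraHom_invAlg ρ h hz, smul_mul_assoc, map_smul, smul_eq_mul, mul_div_assoc]
  rfl

theorem om_invAlg_mem {χ : G → ℂ} (hχ : IsCharacter G χ) {N : Subgroup G}
    (h : IsIrrCharacter N fun n : N => χ n) {z : ℂ[G]} (hz : z ∈ invAlg ℂ N)
    (hz' : z ∈ intAlg M G) : om χ z ∈ locRing M := by
  obtain ⟨n, ρ, rfl⟩ := hχ
  have := isIrreducible_of_isIrrCharacter (ρ.comp N.subtype) h
  have := nontrivial_of_isIrreducible (ρ.comp N.subtype)
  obtain ⟨v, hv⟩ := exists_ne (0 : Fin n → ℂ)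
  exact eigenvalue_mem ρ hz' hv (by rw [asAlgebraHom_invAlg ρ h hz]; rfl)

omit hMm in
theorem isIrr_of_isIrr_comp {H : Type*} [Group H] [Finite H] (f : H →* G) {χ : G → ℂ}
    (hχ : IsCharacter G χ) (h : IsIrrCharacter H fun x => χ (f x)) : IsIrrCharacter G χ := by
  have := Fintype.ofFinite G
  obtain ⟨ψ, hψ, h1⟩ := hχ.exists_irr_constituent fun h0 => h.ne_zero (by rw [h0]; rfl)
  have := Fintype.ofFinite H
  have h2 := (hχ.sub_irr hψ h1).comp f
  have h3 : (fun x => χ (f x)) = (fun x => ψ (f x)) + fun x => (χ - ψ) (f x) := by ext; simp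
  obtain ⟨a, ha⟩ := (hψ.isCharacter.comp f).exists_nat_classInner (hψ.isCharacter.comp f)
  obtain ⟨b, hb⟩ := (hψ.isCharacter.comp f).exists_nat_classInner h2
  obtain ⟨c, hc⟩ := h2.exists_nat_classInner (hψ.isCharacter.comp f)
  obtain ⟨d, hd⟩ := h2.exists_nat_classInner h2
  have h4 := h.classInner_self
  rw [h3, classInner_add_left, classInner_add_right, classInner_add_right, ha, hb, hc, hd] at h4
  have h5 : a + b + (c + d) = 1 := by exact_mod_cast h4
  have h6 : a ≠ 0 := fun h0 => hψ.apply_one_ne_zero (by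
    simpa using congrFun (classInner_self_eq_zero.mp (ha.trans (by rw [h0, Nat.cast_zero]))) 1)
  have h7 := congrFun (classInner_self_eq_zero.mp (hd.trans (by
    rw [show d = 0 by omega, Nat.cast_zero]))) 1
  rw [map_one] at h7
  rw [sub_eq_zero.mp ((hχ.sub_irr hψ h1).eq_zero_of_apply_one h7)]
  exact hψ

variable {p : ℕ} [hp : Fact p.Prime] [CharP (Res M) p]

include hp in
theorem exists_lift_hom (μ : G →* (Res M)ˣ) : ∃ ν : G →* ℂˣ, ∀ g, red M (ν g) = μ g := by
  have hm : ¬p ∣ ordCompl[p] (Nat.card G) := Nat.not_dvd_ordCompl hp.out Nat.card_pos.ne'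
  have hm0 : 0 < ordCompl[p] (Nat.card G) := Nat.ordCompl_pos p Nat.card_pos.ne'
  have h1 : ∀ g, (μ g : Res M) ^ ordCompl[p] (Nat.card G) = 1 := fun g => by
    rw [← ExpChar.pow_prime_pow_mul_eq_one_iff p ((Nat.card G).factorization p),
      Nat.ordProj_mul_ordCompl_eq_self, ← Units.val_pow_eq_pow_val, ← map_pow, pow_card_eq_one',
      map_one, Units.val_one]
  generalize ordCompl[p] (Nat.card G) = m at hm hm0 h1
  have hmem : ∀ ζ : ℂ, ζ ^ m = 1 → ζ ∈ locRing M := fun ζ h =>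
    mem_locRing_of_isIntegral M (IsIntegral.of_pow hm0 (h ▸ isIntegral_one))
  have h2 : ∀ g, ∃ ζ : ℂ, ζ ^ m = 1 ∧ red M ζ = μ g := fun g => by
    have h3 := congrArg (Polynomial.eval (unred M (μ g)))
      (Polynomial.X_pow_sub_one_eq_prod hm0 (Complex.isPrimitiveRoot_exp m hm0.ne'))
    simp only [Polynomial.eval_sub, Polynomial.eval_pow, Polynomial.eval_X, Polynomial.eval_one,
      Polynomial.eval_prod, Polynomial.eval_C] at h3
    have h4 := congrArg (red M) h3
    have h5 : ∀ ζ ∈ Polynomial.nthRootsFinset m (1 : ℂ), ζ ^ m = 1 := fun ζ h =>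
      (Polynomial.mem_nthRootsFinset hm0 _).mp h
    rw [red_sub (pow_mem (unred_mem _) _) (one_mem _), red_pow (unred_mem _), red_unred, h1,
      red_one, sub_self, red_prod _ fun ζ h => sub_mem (unred_mem _) (hmem ζ (h5 ζ h)), eq_comm,
      Finset.prod_eq_zero_iff] at h4
    obtain ⟨ζ, h6, h7⟩ := h4
    rw [red_sub (unred_mem _) (hmem ζ (h5 ζ h6)), red_unred, sub_eq_zero] at h7
    exact ⟨ζ, h5 ζ h6, h7.symm⟩
  choose ζ hζ hζ' using h2
  have h3 : ∀ a b : ℂ, a ^ m = 1 → b ^ m = 1 → red M a = red M b → a = b := by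
    intro a b ha hb h
    have hb0 : red M b ≠ 0 := fun h0 => by
      have := red_pow (hmem b hb) m
      rw [hb, red_one, h0, zero_pow hm0.ne'] at this
      exact one_ne_zero this
    rw [← div_eq_one_iff_eq (ne_zero_of_red_ne_zero hb0)]
    exact eq_one_of_red_eq_one (M := M) hm (by rw [div_pow, ha, hb, div_one])
      (by rw [red_div (hmem a ha) hb0, h, div_self hb0])
  refine ⟨MonoidHom.toHomUnits ⟨⟨ζ, h3 _ _ (hζ 1) (one_pow m) (by simp [hζ'])⟩, fun a b =>
    h3 _ _ (hζ _) (by rw [mul_pow, hζ, hζ, one_mul]) (by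
      rw [red_mul (hmem _ (hζ a)) (hmem _ (hζ b)), hζ', hζ', hζ', map_mul, Units.val_mul])⟩, hζ'⟩

variable (M) in
/-- Integral `N`-invariant elements supported on a coset of `N`. -/
structure Homog (N : Subgroup G) [N.Normal] (q : G ⧸ N) (a : ℂ[G]) : Prop where
  inv : a ∈ invAlg ℂ N
  int : a ∈ intAlg M G
  supp : ∀ x, a.coeff x ≠ 0 → (x : G ⧸ N) = q

omit [CharP (Res M) p] in
theorem Homog.mul {N : Subgroup G} [N.Normal] {q r : G ⧸ N} {a b : ℂ[G]} (ha : Homog M N q a)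
    (hb : Homog M N r b) : Homog M N (q * r) (a * b) := by
  refine ⟨mul_mem ha.inv hb.inv, mul_mem ha.int hb.int, fun x hx => ?_⟩
  have := Fintype.ofFinite G
  rw [coeff_mul_sum] at hx
  obtain ⟨y, -, hy⟩ := Finset.exists_ne_zero_of_sum_ne_zero hx
  rw [← ha.supp y (left_ne_zero_of_mul hy), ← hb.supp _ (right_ne_zero_of_mul hy),
    ← QuotientGroup.mk_mul, mul_inv_cancel_left]

/-- The sum over the `N`-conjugacy class of `g`. -/
noncomputable def nClass (N : Subgroup G) (g : G) : ℂ[G] :=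
  setSum ℂ {x | ∃ n ∈ N, n * g * n⁻¹ = x}

omit [CharP (Res M) p] in
theorem homog_nClass (N : Subgroup G) [N.Normal] (g : G) : Homog M N g (nClass N g) := by
  classical
  refine ⟨mem_invAlg.mpr fun u hu x => ?_, setSum_mem_intAlg _, fun x hx => ?_⟩
  · rw [nClass, coeff_setSum, coeff_setSum]
    refine if_congr ⟨fun ⟨n, hn, e⟩ => ⟨u⁻¹ * n, mul_mem (inv_mem hu) hn, ?_⟩,
      fun ⟨n, hn, e⟩ => ⟨u * n, mul_mem hu hn, by rw [← e]; group⟩⟩ rfl rfl
    calc _ = u⁻¹ * (n * g * n⁻¹) * u := by group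
      _ = x := by rw [e]; group
  · obtain ⟨n, hn, rfl⟩ : x ∈ {x | ∃ n ∈ N, n * g * n⁻¹ = x} := by
      by_contra h
      exact hx (coeff_setSum_of_notMem h)
    rw [QuotientGroup.mk_mul, QuotientGroup.mk_mul, QuotientGroup.mk_inv,
      (QuotientGroup.eq_one_iff n).mpr hn, one_mul, inv_one, mul_one]

omit hMm in
theorem ncard_nClass (N : Subgroup G) (g : G) :
    {x | ∃ n ∈ N, n * g * n⁻¹ = x}.ncard = (cz g).relIndex N := by
  let _ : MulAction N G := MulAction.compHom G ((MulAut.conj (G := G)).comp N.subtype)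
  have h1 : (cz g).subgroupOf N = MulAction.stabilizer N g := by
    ext n
    rw [Subgroup.mem_subgroupOf, mem_cz, MulAction.mem_stabilizer_iff, ← mul_inv_eq_iff_eq_mul]
    rfl
  rw [Subgroup.relIndex, h1, MulAction.index_stabilizer]
  congr 1
  ext x
  exact ⟨fun ⟨n, hn, e⟩ => ⟨⟨n, hn⟩, e⟩, fun ⟨n, e⟩ => ⟨n, n.2, e⟩⟩

omit hMm in
theorem om_nClass {χ : G → ℂ} (hχ : IsClassFunction G χ) (N : Subgroup G) (g : G) :
    om χ (nClass N g) = (cz g).relIndex N * χ g / χ 1 := by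
  classical
  have := Fintype.ofFinite G
  rw [om_apply, nClass, ev_setSum', Finset.sum_congr rfl (g := fun _ => χ g) fun x hx => by
    obtain ⟨n, -, rfl⟩ := (Finset.mem_filter.mp hx).2
    exact hχ g n, Finset.sum_const, nsmul_eq_mul, ← ncard_nClass, Set.ncard_eq_toFinset_card',
    Set.toFinset_setOf]
  rfl

omit [CharP (Res M) p] in
theorem Homog.red_om_eq {N : Subgroup G} [N.Normal] {a : ℂ[G]} (ha : Homog M N 1 a)
    {χ ψ : G → ℂ} (hχ : IsIrrCharacter N fun n : N => χ n) (hψ : IsIrrCharacter N fun n : N => ψ n)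
    (h : SameBlock M (fun n : N => χ n) fun n : N => ψ n) : red M (om χ a) = red M (om ψ a) := by
  have h1 : incl N (trunc N a) = a := by
    rw [incl_trunc, cut_eq_self_iff]
    intro g hg
    by_contra h0
    exact hg ((QuotientGroup.eq_one_iff g).mp (ha.supp g h0))
  rw [← h1, om_incl, om_incl]
  exact red_om_eq_of_sameBlock hχ hψ h (trunc_mem_Zc_of_invAlg ha.inv) (trunc_mem_intAlg N ha.int)

omit [CharP (Res M) p] in
theorem exists_hom_of_homog {N : Subgroup G} [N.Normal] {χ ψ : G → ℂ} (hχ : IsCharacter G χ)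
    (hψ : IsCharacter G ψ) (hχ' : IsIrrCharacter N fun n : N => χ n)
    (hψ' : IsIrrCharacter N fun n : N => ψ n) (h : SameBlock M (fun n : N => χ n) fun n : N => ψ n)
    (hex : ∀ q, ∃ a, Homog M N q a ∧ red M (om ψ a) ≠ 0) :
    ∃ μ : G ⧸ N →* (Res M)ˣ, ∀ q a, Homog M N q a → red M (om χ a) = μ q * red M (om ψ a) := by
  choose u hu hu0 using hex
  have hmul : ∀ {φ : G → ℂ}, IsCharacter G φ → (IsIrrCharacter N fun n : N => φ n) →
      ∀ {q r a b}, Homog M N q a → Homog M N r b →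
      red M (om φ (a * b)) = red M (om φ a) * red M (om φ b) := fun hφ hφ' _ _ a b ha hb => by
    rw [om_invAlg_mul hφ hφ' ha.inv, red_mul (om_invAlg_mem hφ hφ' ha.inv ha.int)
      (om_invAlg_mem hφ hφ' hb.inv hb.int)]
  have h1 : ∀ q a, Homog M N q a → red M (om χ a) * red M (om χ (u q⁻¹)) =
      red M (om ψ a) * red M (om ψ (u q⁻¹)) := fun q a ha => by
    rw [← hmul hχ hχ' ha (hu _), ← hmul hψ hψ' ha (hu _)]
    exact (mul_inv_cancel q ▸ ha.mul (hu q⁻¹)).red_om_eq hχ' hψ' h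
  have h2 : ∀ q, red M (om χ (u q⁻¹)) ≠ 0 := fun q h0 => by
    have := h1 q _ (hu q)
    rw [h0, mul_zero] at this
    exact mul_ne_zero (hu0 _) (hu0 _) this.symm
  have h3 : ∀ q a, Homog M N q a → red M (om χ a) =
      red M (om ψ (u q⁻¹)) / red M (om χ (u q⁻¹)) * red M (om ψ a) := fun q a ha => by
    rw [div_mul_eq_mul_div, eq_div_iff (h2 q), h1 q a ha, mul_comm]
  refine ⟨MonoidHom.toHomUnits ⟨⟨fun q => red M (om ψ (u q⁻¹)) / red M (om χ (u q⁻¹)), ?_⟩,
    fun q r => ?_⟩, h3⟩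
  · rw [div_eq_one_iff_eq (h2 1), inv_one, (hu 1).red_om_eq hχ' hψ' h]
  · have h4 := h3 _ _ ((hu q).mul (hu r))
    rw [hmul hχ hχ' (hu q) (hu r), hmul hψ hψ' (hu q) (hu r), h3 q _ (hu q), h3 r _ (hu r),
      mul_mul_mul_comm] at h4
    exact (mul_right_cancel₀ (mul_ne_zero (hu0 q) (hu0 r)) h4).symm

omit [CharP (Res M) p] in
theorem mem_principalBlock_of_relIndex (N : Subgroup G) [N.Normal] {χ : IrrCharacter G}
    (hχ : IsIrrCharacter N fun n : N => (χ : G → ℂ) n)
    (h : ∀ g, red M ((cz g).relIndex N * (χ : G → ℂ) g / (χ : G → ℂ) 1) = (cz g).relIndex N) :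
    χ ∈ principalBlock M G := by
  refine (sameBlock_iff_red (irrOne G).2 χ.2).mpr fun g => ?_
  obtain ⟨m, hm⟩ := H2.relIndex_dvd_index_of_normal_right (cz g) N
  have h1 := om_invAlg_mem χ.2.isCharacter hχ (homog_nClass (M := M) N g).inv
    (homog_nClass (M := M) N g).int
  rw [om_nClass χ.2.isClassFunction] at h1
  rw [centralChar_irrOne, centralChar, hm, red_natCast, Nat.cast_mul, Nat.cast_mul,
    mul_comm ((cz g).relIndex N : ℂ), mul_assoc, mul_div_assoc, red_mul (natCast_mem _ _) h1, h,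
    red_natCast, mul_comm]

theorem exists_extension_principal (N : Subgroup G) [N.Normal]
    (hcov : ∀ g : G, ∃ c : G, (c : G ⧸ N) = g ∧ ¬p ∣ (cz c).relIndex N) {ψ : IrrCharacter G}
    {θ : IrrCharacter N} (hθ : θ ∈ principalBlock M N) (hψ : ∀ x : N, (ψ : G → ℂ) x = (θ : N → ℂ) x) :
    ∃ χ : IrrCharacter G, (∀ x : N, (χ : G → ℂ) x = (θ : N → ℂ) x) ∧
      ∀ g, red M ((cz g).relIndex N * (χ : G → ℂ) g / (χ : G → ℂ) 1) = (cz g).relIndex N := by
  have h1 : (fun n : N => (ψ : G → ℂ) n) = θ := funext hψ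
  have hone : ∀ g, red M (om (irrOne G : G → ℂ) (nClass N g)) = (cz g).relIndex N := fun g => by
    rw [om_nClass (irrOne G).2.isClassFunction, irrOne_apply, irrOne_apply, mul_one, div_one,
      red_natCast]
  obtain ⟨μ, hμ⟩ := exists_hom_of_homog (M := M) ψ.2.isCharacter (irrOne G).2.isCharacter
    (h1 ▸ θ.2) (irrOne N).2 (h1 ▸ SameBlock.symm hθ) fun q => by
      obtain ⟨g, rfl⟩ := QuotientGroup.mk_surjective q
      obtain ⟨c, hc, hc'⟩ := hcov g
      exact ⟨_, hc ▸ homog_nClass N c, by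
        rw [hone, ← red_natCast]; exact red_natCast_ne_zero hc'⟩
  obtain ⟨ν, hν⟩ := exists_lift_hom (p := p) μ⁻¹
  have hν' := isIrrCharacter_unitsHom (ν.comp (QuotientGroup.mk' N))
  refine ⟨⟨_, ψ.2.mul_linear hν'.isCharacter (by simp)⟩, fun x => ?_, fun g => ?_⟩
  · simp [hψ, (QuotientGroup.eq_one_iff (x : G)).mpr x.2]
  · have h2 := hμ _ _ (homog_nClass N g)
    have h3 := om_invAlg_mem ψ.2.isCharacter (h1 ▸ θ.2) (homog_nClass (M := M) N g).inv
      (homog_nClass (M := M) N g).int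
    rw [om_nClass ψ.2.isClassFunction] at h2 h3
    have h4 : ((ν g : ℂˣ) : ℂ) ∈ locRing M := char_mem hν'.isCharacter g
    simp only [Pi.mul_apply, MonoidHom.comp_apply, QuotientGroup.mk'_apply, QuotientGroup.mk_one,
      map_one, Units.val_one, mul_one]
    rw [← mul_assoc, mul_div_right_comm, red_mul h3 h4, h2, hν, hone,
      MonoidHom.inv_apply, mul_right_comm, Units.mul_inv, one_mul]

end Cfsg.Agent.H3
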