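import Cfsg.Agent.H3.Height0

/-!
# Külshammer's formula for the principal block idempotent
-/

set_option autoImplicit false
set_option linter.unusedSectionVars false

namespace Cfsg.Agent.H3

open Cfsg MonoidAlgebra Cfsg.Agent.H5 Cfsg.Agent.H4
open scoped ComplexConjugate

variable {M : Ideal AlgInt} [hMm : M.IsMaximal] {G : Type*} [Group G] [Finite G]
  {p : ℕ} [hp : Fact p.Prime] [CharP (Res M) p]

omit hMm [CharP (Res M) p] in
theorem om_irrOne_tR : om (irrOne G : G → ℂ) (tR p (irrOne G : G → ℂ)) =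
    Nat.card {y : G // ¬p ∣ orderOf y} := by
  have := Fintype.ofFinite G
  rw [om_apply, ev_eq_sum, Nat.card_eq_fintype_card, Fintype.card_subtype]
  simp [regP, Finset.sum_ite]

theorem red_card_pReg_ne_zero : red M (Nat.card {y : G // ¬p ∣ orderOf y} : ℂ) ≠ 0 := by
  rw [← om_irrOne_tR, ← lam_redA_tR _ (irrOne G).2.isCharacter]
  exact (IsPBlock.lam_tR_ne_zero_iff isPBlock_principalBlock irrOne_mem_principalBlock _).mpr
    ⟨irrOne_mem_principalBlock, blockHeight_eq_zero_of_apply_one _ rfl⟩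

theorem red_indFun_sylow [Fintype G] (Q : Sylow p G) (x : G)
    [Decidable (∃ k, orderOf x = p ^ k)] :
    red M (indFun (Q : Subgroup G) 1 x) =
      if ∃ k, orderOf x = p ^ k then ((Q : Subgroup G).index : Res M) else 0 := by
  split_ifs with h
  · have h1 := red_char_mul (M := M) (isCharacter_indFun (Q : Subgroup G) isCharacter_one)
      (Commute.one_right x) h
    rw [mul_one, indFun_one, Pi.one_apply, mul_one, red_natCast] at h1
    exact h1
  · rw [indFun_eq_zero_of_not_conj, red_zero]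
    intro c hc
    exact h (orderOf_conj' c x ▸ isPElt_of_mem Q.2 hc)

theorem kulshammer {g : G} (hg : ¬p ∣ orderOf g) :
    red M (blockCoeff (principalBlock M G) g) * Nat.card {y : G // ¬p ∣ orderOf y} =
      Nat.card {xy : G × G // (∃ k, orderOf xy.1 = p ^ k) ∧ ¬p ∣ orderOf xy.2 ∧ xy.1 * xy.2 = g} := by
  classical
  have := Fintype.ofFinite G
  obtain ⟨Q⟩ : Nonempty (Sylow p G) := inferInstance
  have hU := IsPBlock.isUnion (isPBlock_principalBlock (M := M) (G := G))
  have hπ := isCharacter_indFun (Q : Subgroup G) isCharacter_one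
  have hT := tR_mem_Zc (p := p) (irrOne G).2.isClassFunction
  have hT' := tR_mem_intAlg (p := p) (M := M) (irr_mem (irrOne G))
  have h1 : red M (ev (indFun (Q : Subgroup G) 1) (tR p (irrOne G : G → ℂ) * single g⁻¹ 1)) =
      (Q : Subgroup G).index * Nat.card {xy : G × G //
        (∃ k, orderOf xy.1 = p ^ k) ∧ ¬p ∣ orderOf xy.2 ∧ xy.1 * xy.2 = g} := by
    rw [ev_mul_single, red_sum _ fun y _ => mul_mem (hT' y) (char_mem hπ _),
      Nat.card_congr (β := {y : G // ¬p ∣ orderOf y ∧ ∃ k, orderOf (y * g⁻¹) = p ^ k})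
        ⟨fun xy => ⟨xy.1.2, xy.2.2.1, by
            obtain ⟨⟨x, y⟩, h1, h2, rfl⟩ := xy
            rwa [mul_inv_rev, mul_inv_cancel_left, orderOf_inv]⟩,
          fun y => ⟨(g * y.1⁻¹, y.1), by
            rw [← orderOf_inv, mul_inv_rev, inv_inv]; exact y.2.2, y.2.1, by simp⟩,
          fun xy => Subtype.ext (Prod.ext (mul_inv_eq_of_eq_mul xy.2.2.2.symm) rfl),
          fun y => rfl⟩,
      Nat.card_eq_fintype_card, Fintype.card_subtype, Finset.card_eq_sum_ones, Nat.cast_sum,
      Finset.mul_sum, Finset.sum_filter]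
    refine Finset.sum_congr rfl fun y _ => ?_
    rw [red_mul (hT' y) (char_mem hπ _), red_indFun_sylow, coeff_tR, regP, orderOf_inv]
    by_cases h1 : p ∣ orderOf y <;> by_cases h2 : ∃ k, orderOf (y * g⁻¹) = p ^ k <;> simp [h1, h2]
  obtain ⟨m, hm, e⟩ := hπ.exists_eq_sum_nat
  have h2 : ∑ χ with χ ∈ principalBlock M G, (m χ : ℂ) * (χ : G → ℂ) g⁻¹ =
      (Q : Subgroup G).index * blockCoeff (principalBlock M G) g := by
    have h3 : ∀ χ : IrrCharacter G, (m χ : ℂ) =
        (Nat.card (Q : Subgroup G) : ℂ)⁻¹ * ∑ u : (Q : Subgroup G), (χ : G → ℂ) u := fun χ => by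
      rw [← hm, hπ.classInner_comm χ.2.isCharacter, frobenius_recip' _ _ χ.2.isClassFunction,
        classInner]
      simp
    simp only [h3, mul_assoc, ← Finset.mul_sum, Finset.sum_mul, IsIrrCharacter.apply_inv (Subtype.prop _)]
    rw [Finset.sum_comm, Finset.sum_eq_single 1 (fun u _ hu => hU.weak_orthogonal' hg (by
      by_contra h
      exact hu (Subtype.ext (eq_one_of_pElt_of_pReg (isPElt_of_mem Q.2 u.2) h)))) (by simp),
      blockCoeff_eq, ← (Q : Subgroup G).card_mul_index]
    have := index_ne_zero_C (Q : Subgroup G)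
    have := natCard_ne_zero (G := (Q : Subgroup G))
    push_cast
    field_simp
  have h4 : red M (ev (indFun (Q : Subgroup G) 1) (tR p (irrOne G : G → ℂ) * single g⁻¹ 1)) =
      red M (∑ χ with χ ∈ principalBlock M G, (m χ : ℂ) * (χ : G → ℂ) g⁻¹) *
        Nat.card {y : G // ¬p ∣ orderOf y} := by
    rw [e, ev_sum_left, red_sum _ fun χ _ => mul_mem (natCast_mem _ _) (irr_mem χ _),
      Finset.sum_mul, Finset.sum_filter]
    simp only [ev_smul_left, ev_Zc_mul (Subtype.prop _) hT, ev_single, one_mul]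
    rw [red_sum _ fun χ _ => mul_mem (natCast_mem _ _) (mul_mem (om_mem χ.2 hT hT') (irr_mem χ _))]
    refine Finset.sum_congr rfl fun χ _ => ?_
    split_ifs with hχ
    · rw [mul_left_comm, red_mul (om_mem χ.2 hT hT') (mul_mem (natCast_mem _ _) (irr_mem χ _)),
        ← red_om_eq_of_sameBlock (irrOne G).2 χ.2 hχ hT hT', om_irrOne_tR, red_natCast, mul_comm]
    · rw [om_apply, hU.compl.ev_tR_eq_zero (χ := irrOne G) (fun h => h irrOne_mem_principalBlock) hχ]
      simp
  rw [h4, h2, red_mul (b := blockCoeff _ _) (natCast_mem _ _) (hU.fA_mem g), red_natCast,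
    mul_assoc] at h1
  refine mul_left_cancel₀ ?_ h1
  rw [← red_natCast]
  exact red_natCast_ne_zero Q.not_dvd_index

end Cfsg.Agent.H3
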